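import Cfsg.Agent.S2130
import Cfsg.Agent.S1063
import Cfsg.Agent.H129.TwE6Fr
import Cfsg.Agent.H967.CopTw
import Cfsg.Agent.H436.Names
import Cfsg.Agent.H436.Ppd

/-!
# The centraliser of an element of order 19 or 37 of `²E₆(3)` (helper870, for S3938)

`te6_three_cent`. The entrywise Frobenius `Fr : a ↦ a ^ 3` of the group over the algebraic closure has the fixed points
`E₆(3)`. If `y * Fr s * y⁻¹ = s`, then Lang's theorem gives `y = z⁻¹ * Fr z` and `z * s * z⁻¹` is a fixed point of `Fr`,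
but `r` does not divide the order of `E₆(3)`.
-/

set_option autoImplicit false
set_option linter.unusedSectionVars false

namespace Cfsg.Agent.H870.Wei

open CoxeterSystem Cfsg Cfsg.Lie Cfsg.Lie.ChevalleyDatum
open Cfsg.Agent.ChevalleyStructure Cfsg.Agent.ChevalleyStructure.Elts Cfsg.Agent.ChevalleyStructure.CoxeterGeom
  Cfsg.Agent.ChevalleyStructure.CoxeterGeomTypes Cfsg.Agent.Nodes
open Cfsg.Agent.GpExc.Field Cfsg.Agent.BpExc.LangFr Cfsg.Agent.LangThm Cfsg.Agent.H129.TorusChar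
  Cfsg.Agent.H129.TorusUntw Cfsg.Agent.BpExc.TowChev
open Cfsg.Agent.OrdDiv Cfsg.Agent.H436 Cfsg.Agent.H967.CopMat Cfsg.Agent.H967.CopTw

/-- `r` does not divide the order of `E₆(3)` -/
theorem not_dvd_card {r : ℕ} (hr : Prim 3 18 r) : ¬ r ∣ Nat.card ↥(chevE6.group (ZMod 3)) := by
  intro h
  have h1 := S1063.result (F := ZMod 3) (q := 3) (ZMod.card 3)
  have h2 : r ∣ 3 ^ 36 * (3 ^ 2 - 1) * (3 ^ 5 - 1) * (3 ^ 6 - 1) * (3 ^ 8 - 1) * (3 ^ 9 - 1) * (3 ^ 12 - 1) := by
    rw [← h1]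
    exact h.mul_left _
  have hp := hr.prime.prime
  have key : ∀ m, 0 < m → m < 18 → ¬ r ∣ 3 ^ m - 1 := fun m hm hm' hd =>
    absurd (Nat.le_of_dvd hm ((hr.dvd_iff m).1 hd)) (by omega)
  rcases hp.dvd_or_dvd h2 with h2 | h2
  · rcases hp.dvd_or_dvd h2 with h2 | h2
    · rcases hp.dvd_or_dvd h2 with h2 | h2
      · rcases hp.dvd_or_dvd h2 with h2 | h2
        · rcases hp.dvd_or_dvd h2 with h2 | h2
          · rcases hp.dvd_or_dvd h2 with h2 | h2
            · exact hr.not_dvd (hp.dvd_of_dvd_pow h2)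
            · exact key 2 (by norm_num) (by norm_num) h2
          · exact key 5 (by norm_num) (by norm_num) h2
        · exact key 6 (by norm_num) (by norm_num) h2
      · exact key 8 (by norm_num) (by norm_num) h2
    · exact key 9 (by norm_num) (by norm_num) h2
  · exact key 12 (by norm_num) (by norm_num) h2

/-- the entrywise Frobenius does not fix the class of an element of order `r` -/
theorem not_conj {F : Type} [Field F] [Fintype F] [CharP F 3] [Fact (Nat.Prime 3)] {r : ℕ}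
    (hr : Prim 3 18 r) {s y : ↥(chevE6.group F)} (hs : orderOf s = r) :
    y * emb RGDTwE6.hp.inList (frobenius F 3) s * y⁻¹ ≠ s := by
  intro h
  let f : F →+* AlgebraicClosure F := algebraMap F (AlgebraicClosure F)
  have hk : CharP (AlgebraicClosure F) 3 := charP_of_injective_algebraMap f.injective 3
  let f3 : ZMod 3 →+* AlgebraicClosure F := ZMod.castHom (dvd_refl 3) _
  let cs := CoxeterMatrix.E₆.toCoxeterSystem
  obtain ⟨z, hz⟩ := lang_all RGDTwE6.hp cs (p := 3) (e := 1) one_pos isFrob_phi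
    (fr_phi (k := AlgebraicClosure F) (p := 3) (e := 1) RGDTwE6.hp cs) 1 (emb RGDTwE6.hp.inList f y)
  have hz' : phi chevE6 (AlgebraicClosure F) 3 1 z = z * emb RGDTwE6.hp.inList f y := by
    rw [hz, map_one, one_mul]
    group
  have h1 : phi chevE6 (AlgebraicClosure F) 3 1 (emb RGDTwE6.hp.inList f s) =
      emb RGDTwE6.hp.inList f (emb RGDTwE6.hp.inList (frobenius F 3) s) := by
    rw [phi_eq RGDTwE6.hp, emb_comp, emb_comp]
    congr 1
    have : (iterateFrobenius (AlgebraicClosure F) 3 1).comp f = f.comp (frobenius F 3) := by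
      ext a
      simp [frobenius_def]
    rw [this]
  have h2 : phi chevE6 (AlgebraicClosure F) 3 1 (z * emb RGDTwE6.hp.inList f s * z⁻¹) =
      z * emb RGDTwE6.hp.inList f s * z⁻¹ := by
    rw [map_mul, map_mul, map_inv, hz', h1]
    have h3 : emb RGDTwE6.hp.inList f y * emb RGDTwE6.hp.inList f (emb RGDTwE6.hp.inList (frobenius F 3) s) *
        (emb RGDTwE6.hp.inList f y)⁻¹ = emb RGDTwE6.hp.inList f s := by
      rw [← map_mul, ← map_inv, ← map_mul, h]
    calc _ = z * (emb RGDTwE6.hp.inList f y * emb RGDTwE6.hp.inList f (emb RGDTwE6.hp.inList (frobenius F 3) s) *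
        (emb RGDTwE6.hp.inList f y)⁻¹) * z⁻¹ := by group
      _ = _ := by rw [h3]
  have hcube : ∀ a : ZMod 3, ∃ b : ZMod 3, b ^ 3 = a := fun a => ⟨a, ZMod.pow_card a⟩
  obtain ⟨x, hx⟩ := fix_range RGDTwE6.hp cs f3 (by rw [ZMod.card, pow_one]) invC_E6 (by norm_num)
    hcube h2
  have h4 : orderOf x = r := by
    rw [← orderOf_injective _ (emb_injective RGDTwE6.hp.inList f3) x, hx, ← hs,
      ← orderOf_injective _ (emb_injective RGDTwE6.hp.inList f) s]
    exact orderOf_injective (MulAut.conj z).toMonoidHom (MulAut.conj z).injective (emb RGDTwE6.hp.inList f s)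
  exact not_dvd_card hr (h4 ▸ orderOf_dvd_natCard x)

theorem charP_three {F : Type} [Field F] [Fintype F] (hF : Fintype.card F = 3 ^ 2) : CharP F 3 := by
  obtain ⟨p, hp⟩ := CharP.exists F
  obtain ⟨n, hpp, hn⟩ := FiniteField.card F p
  have h1 : p ∣ 3 ^ 2 := by
    rw [← hF, hn]
    exact dvd_pow_self p n.pos.ne'
  have h2 := (Nat.prime_dvd_prime_iff_eq hpp Nat.prime_three).1 (hpp.dvd_of_dvd_pow h1)
  exact h2 ▸ hp

/-- **The centraliser of an element of order 19 or 37 of `²E₆(3)`** in an almost simple group lies in the socle. -/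
theorem te6_three_cent {A : Type*} [Group A] [Finite A] (S : Subgroup A) [S.Normal]
    (hC : Subgroup.centralizer (S : Set A) = ⊥) (hS : IsNamed (.te6 3) ↥S)
    {r : ℕ} (hr : Prim 3 18 r) {s : A} (hs : s ∈ S) (ho : orderOf s = r) :
    Subgroup.centralizer {s} ≤ S := by
  obtain ⟨F, _, _, hF, ⟨e⟩⟩ := hS.real
  have hp3 : Fact (Nat.Prime 3) := ⟨Nat.prime_three⟩
  have hch : CharP F 3 := charP_three hF
  let τ : MulAut ↥(twistedE6 F 3) := fieldAut (stab_e6 3) (frobeniusEquiv F 3)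
  have hout : (Cfsg.Inn ↥(twistedE6 F 3)).index = 2 := by
    have h := S2130.result (K := F) 3 1 hF le_rfl
    rw [show (3 : ℕ) ^ 1 = 3 by norm_num] at h
    rw [show 2 * Nat.gcd 3 (3 + 1) * 1 = 2 by norm_num] at h
    exact h
  have hle : twistedE6 F 3 ≤ chevE6.group F :=
    H129.TwE6Fr.tw_le Nat.prime_three.isPrimePow hF
  have key : ∀ y : ↥(twistedE6 F 3), y * τ (e ⟨s, hs⟩) * y⁻¹ ≠ e ⟨s, hs⟩ := by
    intro y h
    refine not_conj hr (s := Subgroup.inclusion hle (e ⟨s, hs⟩)) (y := Subgroup.inclusion hle y) ?_ ?_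
    · rw [orderOf_injective _ (Subgroup.inclusion_injective hle), MulEquiv.orderOf_eq e,
        Subgroup.orderOf_mk, ho]
    · apply Subtype.ext
      have := congrArg (fun g : ↥(twistedE6 F 3) => (g : GL chevE6.Idx F)) h
      exact this
  intro x hx
  by_contra hxS
  let β : MulAut ↥(twistedE6 F 3) := MulAut.congr e (MulAut.conjNormal x)
  have hxs : x * s = s * x := (Subgroup.mem_centralizer_singleton_iff.1 hx)
  have hβ : ∀ t : ↥S, β (e t) = e (MulAut.conjNormal x t) := fun t => by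
    show e (MulAut.conjNormal x (e.symm (e t))) = _
    rw [e.symm_apply_apply]
  have hβs : β (e ⟨s, hs⟩) = e ⟨s, hs⟩ := by
    rw [hβ]
    congr 1
    apply Subtype.ext
    rw [MulAut.conjNormal_apply]
    show x * s * x⁻¹ = s
    rw [hxs, mul_inv_cancel_right]
  have hβI : β ∉ Cfsg.Inn ↥(twistedE6 F 3) := by
    rintro ⟨y, hy⟩
    apply hxS
    have h1 : x * ((e.symm y : ↥S) : A)⁻¹ = 1 := by
      have h2 : x * ((e.symm y : ↥S) : A)⁻¹ ∈ Subgroup.centralizer (S : Set A) := by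
        rw [Subgroup.mem_centralizer_iff]
        intro t ht
        have h3 := hβ (e.symm (y⁻¹ * e ⟨t, ht⟩ * y))
        rw [e.apply_symm_apply, ← hy, MulAut.conj_apply] at h3
        have h4 : (⟨t, ht⟩ : ↥S) = MulAut.conjNormal x (e.symm (y⁻¹ * e ⟨t, ht⟩ * y)) := by
          apply e.injective
          rw [← h3]
          group
        have h5 := congrArg Subtype.val h4
        rw [MulAut.conjNormal_apply, map_mul, map_mul, map_inv, e.symm_apply_apply] at h5
        have h6 : t = x * (((e.symm y : ↥S) : A)⁻¹ * t * ((e.symm y : ↥S) : A)) * x⁻¹ := h5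
        calc t * (x * ((e.symm y : ↥S) : A)⁻¹)
            = x * (((e.symm y : ↥S) : A)⁻¹ * t * ((e.symm y : ↥S) : A)) * x⁻¹ *
              (x * ((e.symm y : ↥S) : A)⁻¹) := by rw [← h6]
          _ = x * ((e.symm y : ↥S) : A)⁻¹ * t := by group
      rwa [hC, Subgroup.mem_bot] at h2
    rw [mul_inv_eq_one.1 h1]
    exact (e.symm y).2
  have hτI : τ ∉ Cfsg.Inn ↥(twistedE6 F 3) := by
    rintro ⟨y, hy⟩
    apply key y⁻¹
    rw [← hy, MulAut.conj_apply]
    group
  have h2 : β * τ⁻¹ ∈ Cfsg.Inn ↥(twistedE6 F 3) := by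
    rw [Subgroup.mul_mem_iff_of_index_two hout]
    exact ⟨fun h => absurd h hβI, fun h => absurd (inv_mem_iff.1 h) hτI⟩
  obtain ⟨y, hy⟩ := h2
  apply key y
  have h3 : MulAut.conj y (τ (e ⟨s, hs⟩)) = (β * τ⁻¹) (τ (e ⟨s, hs⟩)) := by rw [hy]
  rw [MulAut.conj_apply, MulAut.mul_apply, MulAut.inv_apply_self, hβs] at h3
  exact h3

end Cfsg.Agent.H870.Wei
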